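import Mathlib
import Cfsg.Agent.Lib.Helper32.D8Stmt
import Cfsg.Agent.Lib.Helper26.GenChar

set_option autoImplicit false

/-! # S3716 piece CASE2 (fusion `a ~ a*b`): pure case analysis from the general pieces -/

namespace Cfsg.Agent.Lib.Helper85.D8CASE2

open Cfsg Cfsg.Agent.Lib.Helper32.D8Stmt
open scoped ComplexConjugate

universe u

theorem ci_sub_left {G : Type u} [Group G] [Fintype G] (f g h : G → ℂ) :
    classInner (f - g) h = classInner f h - classInner g h := by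
  simp only [classInner, Pi.sub_apply, sub_mul, Finset.sum_sub_distrib, mul_sub]

theorem ci_sub_sub {G : Type u} [Group G] [Fintype G] (f g h k : G → ℂ) :
    classInner (f - g) (h - k) =
      classInner f h - classInner f k - classInner g h + classInner g k := by
  rw [ci_sub_left, Cfsg.Agent.Lib.Helper26.GenChar.classInner_sub_right,
    Cfsg.Agent.Lib.Helper26.GenChar.classInner_sub_right]
  ring

theorem split (x y σ : ℂ) (hx : x = 0 ∨ x = 1 ∨ x = -1) (hy : y = 0 ∨ y = 1 ∨ y = -1)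
    (hσ : σ = 1 ∨ σ = -1) (h : x - y = σ) : (x = σ ∧ y = 0) ∨ (x = 0 ∧ y = -σ) := by
  rcases hx with rfl | rfl | rfl <;> rcases hy with rfl | rfl | rfl <;>
    rcases hσ with rfl | rfl <;>
    first
      | (exfalso; norm_num at h; done)
      | norm_num

theorem zero_or (x e : ℂ) (hx : x = 0 ∨ x = 1 ∨ x = -1) (he : e = 1 ∨ e = -1) (hne : x ≠ -e) :
    x = 0 ∨ x = e := by
  rcases hx with rfl | rfl | rfl <;> rcases he with rfl | rfl <;> simp_all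

theorem main (hM4 : MULT4.{u}) (hCOM : COMMON.{u}) (hCN : COMMONNEG.{u}) (hXM : XM.{u})
    (hA : C2A.{u}) (hB : C2B.{u}) (hT : C2T.{u}) : CASE2.{u} := by
  intro G _ _ Θ1 Θ2 Θ3 Θ4 a w ca cw hb hca hcw hmod htab
  have hΨ1 : IsGeneralizedCharacter G (Θ1 - Θ4) :=
    Cfsg.Agent.Lib.Helper26.GenChar.isGeneralizedCharacter_sub hb.g1 hb.g4
  have hΨ2 : IsGeneralizedCharacter G (Θ2 - Θ3) :=
    Cfsg.Agent.Lib.Helper26.GenChar.isGeneralizedCharacter_sub hb.g2 hb.g3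
  obtain ⟨U, hU, hUt, hUc⟩ := hCN (Θ1 - Θ4) (Θ2 - Θ3) hΨ1 hΨ2
    (by simp [hb.o1, hb.o4]) (by simp [hb.o2, hb.o3])
    (by rw [ci_sub_sub, hb.n11, hb.n14, hb.n41, hb.n44]; norm_num)
    (by rw [ci_sub_sub, hb.n22, hb.n23, hb.n32, hb.n33]; norm_num)
    (by rw [ci_sub_left, hb.t1, hb.t4]; norm_num)
    (by rw [ci_sub_left, hb.t2, hb.t3]; norm_num)
    (by rw [ci_sub_sub, hb.n12, hb.n13, hb.n42, hb.n43]; norm_num)
  obtain ⟨σ, hσ, h14, h23⟩ : ∃ σ : ℂ, (σ = 1 ∨ σ = -1) ∧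
      classInner Θ1 U - classInner Θ4 U = σ ∧ classInner Θ2 U - classInner Θ3 U = -σ := by
    rcases hUc with ⟨h1, h2⟩ | ⟨h1, h2⟩
    · exact ⟨1, Or.inl rfl, by rw [← ci_sub_left]; exact h1, by rw [← ci_sub_left]; exact h2⟩
    · exact ⟨-1, Or.inr rfl, by rw [← ci_sub_left]; exact h1,
        by rw [← ci_sub_left, neg_neg]; exact h2⟩
  have hσ' : -σ = 1 ∨ -σ = -1 := by
    rcases hσ with rfl | rfl
    · exact Or.inr rfl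
    · exact Or.inl (neg_neg 1)
  have m1 := hM4 Θ1 U hb.g1 hb.o1 hb.n11 hU
  have m2 := hM4 Θ2 U hb.g2 hb.o2 hb.n22 hU
  have m3 := hM4 Θ3 U hb.g3 hb.o3 hb.n33 hU
  have m4 := hM4 Θ4 U hb.g4 hb.o4 hb.n44 hU
  have hTU := hT Θ1 Θ2 Θ3 Θ4 a w ca cw hb hca hcw htab U σ hU hUt hσ
  rcases split _ _ σ m1 m4 hσ h14 with ⟨h1, h4⟩ | ⟨h1, h4⟩ <;>
    rcases split _ _ (-σ) m2 m3 hσ' h23 with ⟨h2, h3⟩ | ⟨h2, h3⟩
  · -- (σ, -σ, 0, 0)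
    exact ⟨U, hU, hUt, Or.inr (Or.inr (hTU.1 h1 h2))⟩
  · -- (σ, 0, σ, 0)
    rw [neg_neg] at h3
    exact ⟨U, hU, hUt, Or.inl
      (hB Θ1 Θ2 Θ3 Θ4 a w ca cw hb hca hcw htab U σ hU hUt hσ h1 h2 h3 h4)⟩
  · -- (0, -σ, 0, -σ)
    obtain ⟨X, hX, hXt, hXc⟩ := hCOM Θ1 Θ3 hb.g1 hb.g3 hb.o1 hb.o3 hb.n11 hb.n33 hb.t1 hb.t3
      hb.n13
    obtain ⟨e, he, hX1, hX3⟩ : ∃ e : ℂ, (e = 1 ∨ e = -1) ∧ classInner Θ1 X = e ∧
        classInner Θ3 X = e := by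
      rcases hXc with ⟨h, h'⟩ | ⟨h, h'⟩
      · exact ⟨1, Or.inl rfl, h, h'⟩
      · exact ⟨-1, Or.inr rfl, h, h'⟩
    have hX2ne := hXM Θ3 Θ2 X e hb.g3 hb.g2 hb.o3 hb.o2 hb.n33 hb.n22 hb.t3 hb.t2 hb.n32 hX hXt
      he hX3
    have hX4ne := hXM Θ1 Θ4 X e hb.g1 hb.g4 hb.o1 hb.o4 hb.n11 hb.n44 hb.t1 hb.t4 hb.n14 hX hXt
      he hX1
    have x2 := zero_or _ e (hM4 Θ2 X hb.g2 hb.o2 hb.n22 hX) he hX2ne
    have x4 := zero_or _ e (hM4 Θ4 X hb.g4 hb.o4 hb.n44 hX) he hX4ne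
    have hTX := hT Θ1 Θ2 Θ3 Θ4 a w ca cw hb hca hcw htab X e hX hXt he
    rcases x2 with hX2 | hX2 <;> rcases x4 with hX4 | hX4
    · -- (e, 0, e, 0)
      exact ⟨X, hX, hXt, Or.inl
        (hB Θ1 Θ2 Θ3 Θ4 a w ca cw hb hca hcw htab X e hX hXt he hX1 hX2 hX3 hX4)⟩
    · -- (e, 0, e, e)
      exact ⟨X, hX, hXt, Or.inr (Or.inr (hTX.2.2.1 hX1 hX2 hX3 hX4))⟩
    · -- (e, e, e, 0)
      exact (hTX.2.2.2 hX1 hX2 hX3 hX4).elim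
    · -- (e, e, e, e)
      exact ⟨U, hU, hUt, Or.inl
        (hA Θ1 Θ2 Θ3 Θ4 a w ca cw hb hca hcw hmod htab X U e (-σ) hX hU hXt hUt he hσ'
          hX1 hX2 hX3 hX4 h1 h2 h3 h4)⟩
  · -- (0, 0, σ, -σ)
    rw [neg_neg] at h3
    exact ⟨U, hU, hUt, Or.inr (Or.inl (hTU.2.1 h3 h4))⟩

end Cfsg.Agent.Lib.Helper85.D8CASE2
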