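import Cfsg.Agent.Lib.Helper30.CTIStmt
import Cfsg.Agent.Lib.Helper71.Fitting

/-!
# S4064 / MCCC: a maximal centralizer contains the centralizers of its nonidentity elements.
-/

set_option autoImplicit false

namespace Cfsg.Agent.Lib.Helper85.CTIMCCC

open Cfsg

universe u

theorem main : Cfsg.Agent.Lib.Helper30.CTIStmt.MCCC.{u} := by
  intro G _ _ hCTI hCN w hw hmax y hyM hy1
  have hwy : w * y = y * w := Subgroup.mem_centralizer_iff.mp hyM w (Set.mem_singleton _)
  have hwN : w ∈ Subgroup.centralizer ({y} : Set G) := by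
    rw [Subgroup.mem_centralizer_iff]
    intro h hh
    rw [Set.mem_singleton_iff] at hh
    subst hh
    exact hwy.symm
  -- `M = C(w)` normalizes `N = C(y)`
  have hMN : Subgroup.centralizer ({w} : Set G) ≤
      Subgroup.normalizer ((Subgroup.centralizer ({y} : Set G) : Subgroup G) : Set G) := by
    intro g hg
    by_contra hcon
    have hgw : w * g = g * w := Subgroup.mem_centralizer_iff.mp hg w (Set.mem_singleton _)
    have h1 : g * w * g⁻¹ = w := by
      rw [← hgw]; group
    exact hw (hCTI y g hcon w hwN (by rw [h1]; exact hwN))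
  have hNM : Subgroup.centralizer ({y} : Set G) ≤
      Subgroup.normalizer ((Subgroup.centralizer ({w} : Set G) : Subgroup G) : Set G) := by
    intro g hg
    by_contra hcon
    have hgy : y * g = g * y := Subgroup.mem_centralizer_iff.mp hg y (Set.mem_singleton _)
    have h1 : g * y * g⁻¹ = y := by
      rw [← hgy]; group
    exact hy1 (hCTI w g hcon y hyM (by rw [h1]; exact hyM))
  have hKM : Subgroup.centralizer ({w} : Set G) ⊔ Subgroup.centralizer ({y} : Set G) ≤
      Subgroup.normalizer ((Subgroup.centralizer ({w} : Set G) : Subgroup G) : Set G) :=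
    sup_le Subgroup.le_normalizer hNM
  have hKN : Subgroup.centralizer ({w} : Set G) ⊔ Subgroup.centralizer ({y} : Set G) ≤
      Subgroup.normalizer ((Subgroup.centralizer ({y} : Set G) : Subgroup G) : Set G) :=
    sup_le hMN Subgroup.le_normalizer
  haveI hn1 : ((Subgroup.centralizer ({w} : Set G)).subgroupOf
      (Subgroup.centralizer ({w} : Set G) ⊔ Subgroup.centralizer ({y} : Set G))).Normal :=
    (Subgroup.normal_subgroupOf_iff_le_normalizer le_sup_left).mpr hKM
  haveI hn2 : ((Subgroup.centralizer ({y} : Set G)).subgroupOf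
      (Subgroup.centralizer ({w} : Set G) ⊔ Subgroup.centralizer ({y} : Set G))).Normal :=
    (Subgroup.normal_subgroupOf_iff_le_normalizer le_sup_right).mpr hKN
  have hA' : Group.IsNilpotent ((Subgroup.centralizer ({w} : Set G)).subgroupOf
      (Subgroup.centralizer ({w} : Set G) ⊔ Subgroup.centralizer ({y} : Set G))) :=
    (Group.isNilpotent_congr (Subgroup.subgroupOfEquivOfLe le_sup_left)).2 (hCN w hw)
  have hB' : Group.IsNilpotent ((Subgroup.centralizer ({y} : Set G)).subgroupOf
      (Subgroup.centralizer ({w} : Set G) ⊔ Subgroup.centralizer ({y} : Set G))) :=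
    (Group.isNilpotent_congr (Subgroup.subgroupOfEquivOfLe le_sup_right)).2 (hCN y hy1)
  haveI hKnil : Group.IsNilpotent
      ↥(Subgroup.centralizer ({w} : Set G) ⊔ Subgroup.centralizer ({y} : Set G)) :=
    Cfsg.Agent.Lib.Helper71.Fitting.isNilpotent_of_sup_eq_top _ _ hA' hB'
      (by rw [← Subgroup.subgroupOf_sup le_sup_left le_sup_right, Subgroup.subgroupOf_self])
  have hwM : w ∈ Subgroup.centralizer ({w} : Set G) := by
    rw [Subgroup.mem_centralizer_iff]
    intro h hh
    rw [Set.mem_singleton_iff] at hh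
    subst hh
    rfl
  haveI : Nontrivial ↥(Subgroup.centralizer ({w} : Set G) ⊔ Subgroup.centralizer ({y} : Set G)) :=
    ⟨⟨⟨w, le_sup_left (a := Subgroup.centralizer ({w} : Set G)) hwM⟩, 1,
      fun h => hw (congrArg Subtype.val h)⟩⟩
  have hc := Group.IsNilpotent.center_ne_bot
    ↥(Subgroup.centralizer ({w} : Set G) ⊔ Subgroup.centralizer ({y} : Set G))
  obtain ⟨k, hk1⟩ := (Subgroup.ne_bot_iff_exists_ne_one).mp hc
  have hKk : Subgroup.centralizer ({w} : Set G) ⊔ Subgroup.centralizer ({y} : Set G) ≤
      Subgroup.centralizer ({((k : ↥(Subgroup.centralizer ({w} : Set G) ⊔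
        Subgroup.centralizer ({y} : Set G))) : G)} : Set G) := by
    intro g hg
    rw [Subgroup.mem_centralizer_iff]
    intro h hh
    rw [Set.mem_singleton_iff] at hh
    subst hh
    have h2 := Subgroup.mem_center_iff.mp k.2 ⟨g, hg⟩
    exact (congrArg Subtype.val h2).symm
  have hk1' : ((k : ↥(Subgroup.centralizer ({w} : Set G) ⊔
        Subgroup.centralizer ({y} : Set G))) : G) ≠ 1 := by
    intro h
    apply hk1
    apply Subtype.ext
    apply Subtype.ext
    exact h
  have heq := hmax _ hk1' (le_sup_left.trans hKk)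
  calc Subgroup.centralizer ({y} : Set G)
      ≤ Subgroup.centralizer ({w} : Set G) ⊔ Subgroup.centralizer ({y} : Set G) := le_sup_right
    _ ≤ _ := hKk
    _ = Subgroup.centralizer ({w} : Set G) := heq

end Cfsg.Agent.Lib.Helper85.CTIMCCC
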