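import Cfsg.Agent.Lib.Helper30.CTIStmt
import Cfsg.Agent.Lib.Helper50.Cores

/-!
# S4064 / NO3: a group all of whose nonidentity centralizers lie in "maximal centralizers" (`MCd`)
is not a three-step group.
-/

set_option autoImplicit false

namespace Cfsg.Agent.Lib.Helper85.CTINO3

open Cfsg Cfsg.Agent.Lib.Helper30.CTIStmt

universe u

theorem main : Cfsg.Agent.Lib.Helper30.CTIStmt.NO3.{u} := by
  intro G _ _ hMC p hp h3
  haveI : Fact p.Prime := ⟨hp⟩
  obtain ⟨hP0, A, -, -, -, -, -, hHAtop, ⟨n, hidx⟩, -, -⟩ := h3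
  have hP0pg : IsPGroup p ↥(pCore p G) := Cfsg.Agent.Lib.Helper50.Cores.pCore_isPGroup p
  haveI hP0n : (pCore p G).Normal := Cfsg.Agent.Lib.Helper50.Cores.pCore_normal p
  haveI : Nontrivial ↥(pCore p G) := (Subgroup.nontrivial_iff_ne_bot _).mpr hP0
  haveI := hP0pg.center_nontrivial
  obtain ⟨z, hz⟩ := exists_ne (1 : ↥(Subgroup.center ↥(pCore p G)))
  have hx1 : ((z : ↥(pCore p G)) : G) ≠ 1 := by
    intro h
    apply hz
    apply Subtype.ext
    apply Subtype.ext
    exact h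
  obtain ⟨M, hCM, hM⟩ := hMC _ hx1
  have hP0C : pCore p G ≤ Subgroup.centralizer ({((z : ↥(pCore p G)) : G)} : Set G) := by
    intro g hg
    rw [Subgroup.mem_centralizer_iff]
    intro h hh
    rw [Set.mem_singleton_iff] at hh
    subst hh
    have h2 := Subgroup.mem_center_iff.mp z.2 ⟨g, hg⟩
    exact (congrArg Subtype.val h2).symm
  have hP0M : pCore p G ≤ M := hP0C.trans hCM
  have hxM : ((z : ↥(pCore p G)) : G) ∈ M := hP0M (z : ↥(pCore p G)).2
  haveI hMn : M.Normal := by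
    refine ⟨fun m hm g => ?_⟩
    have hg : g ∈ Subgroup.normalizer (M : Set G) :=
      hM.ti g _ hxM hx1 (hP0M (hP0n.conj_mem _ (z : ↥(pCore p G)).2 g))
    exact (Subgroup.mem_normalizer_iff.mp hg m).mp hm
  have hpM : p ∣ Nat.card ↥M := by
    have h1 : p ∣ Nat.card ↥(pCore p G) := by
      rcases hP0pg.card_eq_or_dvd with h | h
      · exact absurd (Subgroup.card_eq_one.mp h) hP0
      · exact h
    exact h1.trans (Subgroup.card_dvd_of_le hP0M)
  have hidxM : ¬ p ∣ M.index := hM.hall p hp hpM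
  haveI := hM.nil
  obtain ⟨Q⟩ : Nonempty (Sylow p ↥M) := inferInstance
  have htfae : Group.IsNilpotent ↥M → ∀ (p : ℕ) (_hp : Fact p.Prime) (P : Sylow p ↥M),
      (↑P : Subgroup ↥M).Normal := ((isNilpotent_of_finite_tfae (G := ↥M)).out 0 3).mp
  have hQn : (Q : Subgroup ↥M).Normal := htfae hM.nil p inferInstance Q
  haveI hQc : (Q : Subgroup ↥M).Characteristic := Sylow.characteristic_of_normal Q hQn
  have hQ'n : ((Q : Subgroup ↥M).map M.subtype).Normal := inferInstance
  have hQ'pg : IsPGroup p ↥((Q : Subgroup ↥M).map M.subtype) := Q.isPGroup'.map M.subtype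
  have hQ'le : (Q : Subgroup ↥M).map M.subtype ≤ pCore p G :=
    Cfsg.Agent.Lib.Helper50.Cores.le_pCore p _ hQ'n hQ'pg
  have hQ'idx : ¬ p ∣ ((Q : Subgroup ↥M).map M.subtype).index := by
    rw [Subgroup.index_map_subtype]
    intro h
    rcases (Nat.Prime.dvd_mul hp).mp h with h | h
    · exact Q.not_dvd_index h
    · exact hidxM h
  have hdvd : (pCore p G ⊔ A).index ∣ ((Q : Subgroup ↥M).map M.subtype).index :=
    Subgroup.index_dvd_of_le (hQ'le.trans le_sup_left)
  rw [hidx] at hdvd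
  rcases Nat.eq_zero_or_pos n with rfl | hn
  · rw [pow_zero] at hidx
    exact hHAtop (Subgroup.index_eq_one.mp hidx)
  · exact hQ'idx ((dvd_pow_self p hn.ne').trans hdvd)

end Cfsg.Agent.Lib.Helper85.CTINO3
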