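import Cfsg.Agent.Lib.Helper89.DSStmt
import Cfsg.Agent.Lib.Helper77.DihG4

/-!
# S0508 / OIDX: the centralizer of the central involution of a dihedral Sylow 2-subgroup is
2-nilpotent (its odd core has 2-power index).
-/

set_option autoImplicit false

namespace Cfsg.Agent.Lib.Helper85.DSOIDX

open Cfsg Cfsg.Agent.Lib.Helper77.DihG Cfsg.Agent.Lib.Helper77.DihG2 Cfsg.Agent.Lib.Helper77.DihG4

universe u

theorem dih2_sq : ∀ x : DihedralGroup 2, x * x = 1 := by decide

/-- the Klein case -/
theorem klein_case (G : Type u) [Group G] [Finite G] (S : Sylow 2 G)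
    (e : ↥(S : Subgroup G) ≃* DihedralGroup 2) (t : G) (ht : orderOf t = 2)
    (htS : t ∈ (S : Subgroup G)) (htc : ∀ s ∈ (S : Subgroup G), s * t = t * s) :
    ∃ k : ℕ, (Cfsg.oddCore ↥(Subgroup.centralizer ({t} : Set G))).index = 2 ^ k := by
  have hSC : (S : Subgroup G) ≤ Subgroup.centralizer ({t} : Set G) := by
    intro s hs
    rw [Subgroup.mem_centralizer_iff]
    intro w hw
    rw [Set.mem_singleton_iff] at hw
    subst hw
    exact (htc s hs).symm
  have hSmem : ∀ x : ↥(Subgroup.centralizer ({t} : Set G)),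
      x ∈ ((S.subtype hSC : Sylow 2 ↥(Subgroup.centralizer ({t} : Set G))) :
        Subgroup ↥(Subgroup.centralizer ({t} : Set G))) ↔ (x : G) ∈ (S : Subgroup G) := by
    intro x
    rw [Sylow.coe_subtype, Subgroup.mem_subgroupOf]
  have hcard : Nat.card ((S.subtype hSC : Sylow 2 ↥(Subgroup.centralizer ({t} : Set G))) :
      Subgroup ↥(Subgroup.centralizer ({t} : Set G))) = 4 := by
    rw [Sylow.coe_subtype, Nat.card_congr (Subgroup.subgroupOfEquivOfLe hSC).toEquiv,
      Nat.card_congr e.toEquiv, DihedralGroup.nat_card]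
  have hsq : ∀ s ∈ (S : Subgroup G), s * s = 1 := by
    intro s hs
    have h1 : e (⟨s, hs⟩ * ⟨s, hs⟩) = e 1 := by
      rw [map_mul, dih2_sq, map_one]
    exact congrArg Subtype.val (e.injective h1)
  have htC : t ∈ Subgroup.centralizer ({t} : Set G) := hSC htS
  have hMM : ∀ u ∈ ((S.subtype hSC : Sylow 2 ↥(Subgroup.centralizer ({t} : Set G))) :
        Subgroup ↥(Subgroup.centralizer ({t} : Set G))),
        u ∉ Subgroup.zpowers (⟨t, htC⟩ : ↥(Subgroup.centralizer ({t} : Set G))) →
        ∃ M : Subgroup ↥(Subgroup.centralizer ({t} : Set G)),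
          M.Normal ∧ M.index = 2 ∧ u ∉ M := by
    intro u hu huQ
    have huP : (u : G) ∈ (S : Subgroup G) := (hSmem u).mp hu
    have hu2 : orderOf u = 2 := by
      rw [← Subgroup.orderOf_coe]
      apply orderOf_eq_prime
      · rw [pow_two]
        exact hsq _ huP
      · intro e1
        apply huQ
        have : u = 1 := Subtype.ext e1
        rw [this]
        exact Subgroup.one_mem _
    have hQS : Subgroup.zpowers (⟨t, htC⟩ : ↥(Subgroup.centralizer ({t} : Set G))) ≤
        ((S.subtype hSC : Sylow 2 ↥(Subgroup.centralizer ({t} : Set G))) :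
          Subgroup ↥(Subgroup.centralizer ({t} : Set G))) := by
      rw [Subgroup.zpowers_le]
      exact (hSmem _).mpr htS
    have hrel : (Subgroup.zpowers
        (⟨t, htC⟩ : ↥(Subgroup.centralizer ({t} : Set G)))).relIndex
        ((S.subtype hSC : Sylow 2 ↥(Subgroup.centralizer ({t} : Set G))) :
          Subgroup ↥(Subgroup.centralizer ({t} : Set G))) = 2 := by
      have e1 := Cfsg.Agent.Lib.Helper76.PSolv.card_eq_card_mul_relIndex hQS
      rw [hcard, Nat.card_zpowers, Subgroup.orderOf_mk, ht] at e1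
      omega
    rcases Cfsg.Agent.S0111.result (S.subtype hSC) _ hQS hrel u hu2 hu huQ with hM | ⟨g, hg⟩
    · exact hM
    · exfalso
      apply huQ
      obtain ⟨k, hk⟩ := Subgroup.mem_zpowers_iff.mp hg
      have hcomm : ∀ g : ↥(Subgroup.centralizer ({t} : Set G)),
          g * (⟨t, htC⟩ : ↥(Subgroup.centralizer ({t} : Set G))) = ⟨t, htC⟩ * g := by
        intro g
        apply Subtype.ext
        exact (Subgroup.mem_centralizer_iff.mp g.2 t (Set.mem_singleton _)).symm
      have hck : Commute g ((⟨t, htC⟩ : ↥(Subgroup.centralizer ({t} : Set G))) ^ k) :=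
        Commute.zpow_right (hcomm g) k
      have hu' : u = (⟨t, htC⟩ : ↥(Subgroup.centralizer ({t} : Set G))) ^ k := by
        calc u = g⁻¹ * (g * u * g⁻¹) * g := by group
          _ = g⁻¹ * ((⟨t, htC⟩ : ↥(Subgroup.centralizer ({t} : Set G))) ^ k * g) := by
              rw [← hk, mul_assoc]
          _ = g⁻¹ * (g * (⟨t, htC⟩ : ↥(Subgroup.centralizer ({t} : Set G))) ^ k) := by
              rw [hck.eq]
          _ = (⟨t, htC⟩ : ↥(Subgroup.centralizer ({t} : Set G))) ^ k := by group
      rw [hu']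
      exact Subgroup.zpow_mem _ (Subgroup.mem_zpowers _) _
  obtain ⟨K, hKn, hKc⟩ := exists_complement (S.subtype hSC) ⟨t, htC⟩ hMM
  exact index_of_complement 2 (S.subtype hSC) K hKn hKc

theorem main : Cfsg.Agent.Lib.Helper89.DSStmt.OIdx.{u} := by
  intro G _ _ S n hn ⟨e⟩ t ht htS htc
  -- `2 n` is a power of two
  obtain ⟨m, hm⟩ := (IsPGroup.iff_card (p := 2) (G := ↥(S : Subgroup G))).mp S.isPGroup'
  rw [Nat.card_congr e.toEquiv, DihedralGroup.nat_card] at hm
  have hm1 : 2 ≤ m := by
    by_contra hcon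
    have : m = 0 ∨ m = 1 := by omega
    rcases this with rfl | rfl <;> omega
  obtain ⟨j, rfl⟩ : ∃ j, m = j + 2 := ⟨m - 2, by omega⟩
  have hn' : n = 2 * 2 ^ j := by
    have : 2 ^ (j + 2) = 2 * (2 * 2 ^ j) := by ring
    omega
  rcases Nat.eq_zero_or_pos j with rfl | hj
  · -- Klein case
    have hn2 : n = 2 := by simpa using hn'
    subst hn2
    exact klein_case G S e t ht htS htc
  · -- `n = 2 h`, `h ≥ 2`
    have h2 : 2 ≤ 2 ^ j := by
      calc 2 = 2 ^ 1 := by norm_num
        _ ≤ 2 ^ j := Nat.pow_le_pow_right (by norm_num) hj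
    subst hn'
    haveI : NeZero (2 * 2 ^ j) := ⟨by positivity⟩
    have hσord : orderOf ((e.symm (DihedralGroup.r 1) : ↥(S : Subgroup G)) : G) = 2 * 2 ^ j := by
      rw [Subgroup.orderOf_coe, MulEquiv.orderOf_eq, DihedralGroup.orderOf_r_one]
    have D : DihData (S : Subgroup G) ((e.symm (DihedralGroup.r 1) : ↥(S : Subgroup G)) : G)
        (2 ^ j) :=
      dihData_of_equiv (S : Subgroup G) _ (2 ^ j) h2 (e.symm (DihedralGroup.r 1)).2 hσord e
    have htR : t ∈ Subgroup.zpowers ((e.symm (DihedralGroup.r 1) : ↥(S : Subgroup G)) : G) := by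
      by_contra hcon
      have h3 := (D.out t htS hcon).2
      have h4 := htc _ D.mem
      -- σ = σ⁻¹
      have h5 : ((e.symm (DihedralGroup.r 1) : ↥(S : Subgroup G)) : G) ^ 2 = 1 := by
        rw [pow_two]
        calc ((e.symm (DihedralGroup.r 1) : ↥(S : Subgroup G)) : G) *
              ((e.symm (DihedralGroup.r 1) : ↥(S : Subgroup G)) : G)
            = ((e.symm (DihedralGroup.r 1) : ↥(S : Subgroup G)) : G) *
              (t * ((e.symm (DihedralGroup.r 1) : ↥(S : Subgroup G)) : G) * t⁻¹) := by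
                rw [← h4]; group
          _ = 1 := by rw [h3]; group
      have h6 := orderOf_dvd_of_pow_eq_one h5
      rw [hσord] at h6
      have h7 := Nat.le_of_dvd (by norm_num) h6
      omega
    have htJ := D.unique_invol t htR ht
    subst htJ
    exact (J_centralizer_facts S D).1

end Cfsg.Agent.Lib.Helper85.DSOIDX
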