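import Mathlib
import Cfsg.Agent.Lib.Helper44.GFStmt
import Cfsg.Agent.Lib.Helper45.OmegaAutSim

set_option autoImplicit false

/-! S2717 piece [DZ]: an inner-diagonal similarity of the minus form with non-square
multiplier, of the explicit shape `Dm`. -/

namespace Cfsg.Agent.Lib.Helper85.GFDZ

open Matrix Module QuadraticMap
open Cfsg.Agent.Lib.Helper43.OPlAut Cfsg.Agent.Lib.Helper45.OmegaAut
  Cfsg.Agent.Lib.Helper43.H90Fin Cfsg.Agent.Lib.Helper45.MinusInndiag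
open Cfsg.Agent.Lib.Helper44.OFld0 Cfsg.Agent.Lib.Helper44.OFld1
  Cfsg.Agent.Lib.Helper44.OFldStmt Cfsg.Agent.Lib.Helper44.MFld0
  Cfsg.Agent.Lib.Helper44.MFldStmt Cfsg.Agent.Lib.Helper44.MCentStmt
open Cfsg.Agent.Lib.Helper44.QSpace Cfsg.Agent.Lib.Helper44.OGroup
open Cfsg.Agent.Lib.Helper44.OMat Cfsg.Agent.Lib.Helper44.NegPairs
open Cfsg.Agent.Lib.Helper45.OmegaAutPsi
open Cfsg.Agent.Lib.Helper45.OmegaAutMain Cfsg.Agent.Lib.Helper45.OmegaInndiag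
open Cfsg.Agent.Lib.Helper45.PlusInndiag
open Cfsg.Agent.Lib.Helper44.GFStmt

universe v

theorem main : Cfsg.Agent.Lib.Helper44.GFStmt.DeltaZero.{v} := by
  intro F₀ _ _ h2 k hk a₀ b₀ hab
  obtain ⟨ν, hν, hν'⟩ := Cfsg.Agent.Lib.Helper45.OmegaAutSim.exists_nonsquare_unit (F := F₀) h2
  have hS := sep_minusQ h2 k a₀ b₀ hab
  obtain ⟨s, t, hst⟩ := exists_norm h2 hab (ν : F₀)
  have hL : ∀ v, minusQ k F₀ a₀ b₀ (Matrix.toLin' (Dm k (ν : F₀) s t a₀ b₀) v)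
      = (ν : F₀) * minusQ k F₀ a₀ b₀ v := by
    intro v
    rw [Matrix.toLin'_apply, ← hst]
    exact Dm_sim k s t a₀ b₀ v
  obtain ⟨δ, hδ⟩ := exists_sim_mulVec (minusQ k F₀ a₀ b₀) hS _ ν hL
  have hv₀ : minusQ k F₀ a₀ b₀ (Pi.single (Sum.inr 0) 1) ≠ 0 := by
    show Cfsg.quadFormMinus k F₀ a₀ b₀ (Pi.single (Sum.inr 0) 1) ≠ 0
    unfold Cfsg.quadFormMinus
    simp
  have hμ : mu (minusQ k F₀ a₀ b₀) δ = ν :=
    mu_unique (minusQ k F₀ a₀ b₀) hv₀ δ _ (fun v => by rw [hδ]; exact hL v)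
  have hδmat : ((δ : GL (MI k) F₀) : Matrix (MI k) (MI k) F₀) = Dm k (ν : F₀) s t a₀ b₀ :=
    matrix_ext_mulVec (fun x => by rw [hδ, Matrix.toLin'_apply])
  refine ⟨δ, s, t, (ν : F₀), hst.symm, hν', hδmat, ?_⟩
  rw [inndiag_minus_eq h2 k hab hv₀]
  refine ⟨δ, (mem_G0 (minusQ k F₀ a₀ b₀) hv₀ (k + 1) δ).mpr ?_, rfl⟩
  rw [dl_eq_one_iff, hδmat, det_Dm, hst, hμ, pow_succ]

end Cfsg.Agent.Lib.Helper85.GFDZ
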