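import Mathlib
import Cfsg.Agent.Lib.Helper44.GFStmt
import Cfsg.Agent.Lib.Helper45.OmegaAutKer

set_option autoImplicit false

/-! S2717 piece [KC2]: through `Hs`, `Phi g₀ = 1 ↔ Phi g = 1` (both mean "scalar"). -/

namespace Cfsg.Agent.Lib.Helper85.GFKC2

open Matrix Module QuadraticMap
open Cfsg.Agent.Lib.Helper43.OPlAut Cfsg.Agent.Lib.Helper45.OmegaAut
  Cfsg.Agent.Lib.Helper43.H90Fin Cfsg.Agent.Lib.Helper45.MinusInndiag
open Cfsg.Agent.Lib.Helper44.OFld0 Cfsg.Agent.Lib.Helper44.OFld1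
  Cfsg.Agent.Lib.Helper44.OFldStmt Cfsg.Agent.Lib.Helper44.MFld0
  Cfsg.Agent.Lib.Helper44.MFldStmt Cfsg.Agent.Lib.Helper44.MCentStmt
open Cfsg.Agent.Lib.Helper44.GFStmt

universe u v

theorem main (hKM : KerPhiMinus.{v}) (hKC : KerPhiCσ.{u}) (hC1 : CσOne.{u}) (hHI : HsInv.{u}) :
    Cfsg.Agent.Lib.Helper44.GFStmt.KerCompat2.{u, v} := by
  intro F₀ _ _ F _ _ j k hk a₀ b₀ hab ω ω' h1 h2 hne g₀ g hg
  obtain ⟨H', hH1, hH2⟩ := hHI F k ω ω' hne
  constructor
  · intro h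
    obtain ⟨c₀, hc₀⟩ := hKM F₀ k hk a₀ b₀ hab g₀ h
    have hM : ((g₀ : GL (MI k) F₀) : Matrix (MI k) (MI k) F₀)
        = c₀ • (1 : Matrix (MI k) (MI k) F₀) := by
      apply Cfsg.Agent.Lib.Helper44.OMat.matrix_ext_mulVec
      intro x
      rw [hc₀, Matrix.smul_mulVec, Matrix.one_mulVec]
    have hmap : ((g₀ : GL (MI k) F₀) : Matrix (MI k) (MI k) F₀).map j
        = j c₀ • (1 : Matrix (MI k) (MI k) F) := by
      rw [hM]
      ext i l
      simp [Matrix.one_apply]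
      split_ifs <;> simp
    have hg' : ((g : GL (PI k) F) : Matrix (PI k) (PI k) F)
        = j c₀ • (1 : Matrix (PI k) (PI k) F) := by
      calc ((g : GL (PI k) F) : Matrix (PI k) (PI k) F)
          = ((g : GL (PI k) F) : Matrix (PI k) (PI k) F) * (Hs k ω ω' * H') := by
            rw [hH1, Matrix.mul_one]
        _ = (Hs k ω ω' * ((g₀ : GL (MI k) F₀) : Matrix (MI k) (MI k) F₀).map j) * H' := by
            rw [← Matrix.mul_assoc, hg]
        _ = j c₀ • (1 : Matrix (PI k) (PI k) F) := by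
            rw [hmap, Matrix.mul_smul, Matrix.mul_one, Matrix.smul_mul, hH1]
    apply Cfsg.Agent.Lib.Helper45.OmegaAutKer.Phi_eq_one_of_scalar _ g (j c₀)
    intro x
    rw [hg', Matrix.smul_mulVec, Matrix.one_mulVec]
  · intro h
    have h' : Phi (Cfsg.quadFormPlus (k + 1) F) g * cσ (RingEquiv.refl F) = 1 := by
      rw [hC1, mul_one, h]
    obtain ⟨-, c, hc⟩ := hKC F (k + 1) (by omega) g (RingEquiv.refl F) h'
    have hM : ((g : GL (PI k) F) : Matrix (PI k) (PI k) F)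
        = c • (1 : Matrix (PI k) (PI k) F) := by
      apply Cfsg.Agent.Lib.Helper44.OMat.matrix_ext_mulVec
      intro x
      rw [hc, Matrix.smul_mulVec, Matrix.one_mulVec]
    have hmap : ((g₀ : GL (MI k) F₀) : Matrix (MI k) (MI k) F₀).map j
        = c • (1 : Matrix (MI k) (MI k) F) := by
      calc ((g₀ : GL (MI k) F₀) : Matrix (MI k) (MI k) F₀).map j
          = (H' * Hs k ω ω') * ((g₀ : GL (MI k) F₀) : Matrix (MI k) (MI k) F₀).map j := by
            rw [hH2, Matrix.one_mul]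
        _ = H' * (((g : GL (PI k) F) : Matrix (PI k) (PI k) F) * Hs k ω ω') := by
            rw [Matrix.mul_assoc, hg]
        _ = c • (1 : Matrix (MI k) (MI k) F) := by
            rw [hM, Matrix.smul_mul, Matrix.one_mul, Matrix.mul_smul, hH2]
    have hentry : ∀ i l : MI k, j (((g₀ : GL (MI k) F₀) : Matrix (MI k) (MI k) F₀) i l)
        = (c • (1 : Matrix (MI k) (MI k) F)) i l := fun i l => by rw [← hmap]; rfl
    have hM0 : ((g₀ : GL (MI k) F₀) : Matrix (MI k) (MI k) F₀)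
        = (((g₀ : GL (MI k) F₀) : Matrix (MI k) (MI k) F₀) (Sum.inr 0) (Sum.inr 0))
          • (1 : Matrix (MI k) (MI k) F₀) := by
      ext i l
      apply j.injective
      rw [hentry]
      by_cases hil : i = l
      · subst hil
        simp [hentry (Sum.inr 0) (Sum.inr 0)]
      · simp [Matrix.one_apply, hil]
    apply Cfsg.Agent.Lib.Helper45.OmegaAutKer.Phi_eq_one_of_scalar _ g₀
      (((g₀ : GL (MI k) F₀) : Matrix (MI k) (MI k) F₀) (Sum.inr 0) (Sum.inr 0))
    intro x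
    conv_lhs => rw [hM0]
    rw [Matrix.smul_mulVec, Matrix.one_mulVec]

end Cfsg.Agent.Lib.Helper85.GFKC2
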