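import Mathlib
import Cfsg.Agent.Lib.Helper40.GFStmt

set_option autoImplicit false

/-! S5886 piece Z3: `|F| = 2`, `|L| = 4`, `k = 2`: from a non line preserving `g ∈ c.M` get a non
line preserving `h ∈ c.M` which preserves at least one line. -/

namespace Cfsg.Agent.Lib.Helper85.GFZ3

open Cfsg.Agent.Lib.Helper40.GFStmt

universe u

/-- `F = {0, 1}`, `L = {0, 1, ω, ω + 1}`, `ω² = ω + 1`, characteristic two. -/
theorem field_facts (F L : Type u) [Field F] [Field L] [Algebra F L] [Finite L]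
    (hF : Nat.card F = 2) (hL : Module.finrank F L = 2) :
    (∀ s : F, s = 0 ∨ s = 1) ∧ ((1 : L) + 1 = 0) ∧
    ∃ ω : L, ω ≠ 0 ∧ ω ≠ 1 ∧ ω * ω = ω + 1 ∧ ∀ a : L, a = 0 ∨ a = 1 ∨ a = ω ∨ a = ω + 1 := by
  classical
  have hA : ∀ s : F, s = 0 ∨ s = 1 := by
    obtain ⟨y, hy, huniq⟩ := (Nat.card_eq_two_iff' (0 : F)).mp hF
    intro s
    by_cases hs : s = 0
    · exact Or.inl hs
    · right
      rw [huniq s hs, huniq 1 one_ne_zero]
  have h2F : (1 : F) + 1 = 0 := by
    rcases hA (1 + 1) with h | h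
    · exact h
    · exfalso
      exact one_ne_zero (α := F) (by linear_combination h)
  have h11 : (1 : L) + 1 = 0 := by
    have h := congrArg (algebraMap F L) h2F
    rw [map_add, map_one, map_zero] at h
    exact h
  haveI : Finite F := Nat.finite_of_card_ne_zero (by rw [hF]; norm_num)
  have hcard : Nat.card L = 4 := by
    rw [Module.natCard_eq_pow_finrank (K := F), hF, hL]
    norm_num
  letI := Fintype.ofFinite L
  have hcard' : Fintype.card L = 4 := by
    rw [← Nat.card_eq_fintype_card]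
    exact hcard
  have h4 : ∀ a : L, a ^ 4 = a := by
    intro a
    have h := FiniteField.pow_card a
    rw [hcard'] at h
    exact h
  have hsq : ∀ a : L, a ≠ 0 → a ≠ 1 → a * a = a + 1 := by
    intro a ha0 ha1
    have h : a * (a - 1) * (a * a + a + 1) = 0 := by linear_combination h4 a
    rcases mul_eq_zero.mp h with h' | h'
    · rcases mul_eq_zero.mp h' with h'' | h''
      · exact absurd h'' ha0
      · exact absurd (sub_eq_zero.mp h'') ha1
    · linear_combination h' - (a + 1) * h11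
  obtain ⟨ω, hω0, hω1⟩ : ∃ ω : L, ω ≠ 0 ∧ ω ≠ 1 := by
    by_contra hcon
    push_neg at hcon
    have hsub : (Finset.univ : Finset L) ⊆ {0, 1} := by
      intro a _
      rw [Finset.mem_insert, Finset.mem_singleton]
      by_cases ha : a = 0
      · exact Or.inl ha
      · exact Or.inr (hcon a ha)
    have h1 : Fintype.card L ≤ 2 :=
      (Finset.card_le_card hsub).trans Finset.card_le_two
    omega
  refine ⟨hA, h11, ω, hω0, hω1, hsq ω hω0 hω1, ?_⟩
  intro a
  by_cases ha0 : a = 0
  · exact Or.inl ha0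
  by_cases ha1 : a = 1
  · exact Or.inr (Or.inl ha1)
  right; right
  have ha2 := hsq a ha0 ha1
  have hω2 := hsq ω hω0 hω1
  have h : (a - ω) * (a - (ω + 1)) = 0 := by
    linear_combination ha2 + hω2 + (1 + ω - a * ω) * h11
  rcases mul_eq_zero.mp h with h' | h'
  · exact Or.inl (sub_eq_zero.mp h')
  · exact Or.inr (sub_eq_zero.mp h')

theorem main (hSpread : Spread.{u}) (hZ2 : Z2.{u}) : Z3.{u} := by
  intro F L _ _ _ _ c hF hL g hg hgnot
  obtain ⟨hA, h11, ω, hω0, hω1, hω2, hLall⟩ := field_facts F L hF hL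
  -- every `L`-linear automorphism is in `c.M`
  have hallM : ∀ h : V 2 L ≃ₗ[L] V 2 L, h.restrictScalars F ∈ c.M := by
    intro h
    apply c.hsub
    rcases hA (Algebra.norm F (LinearMap.det (h : V 2 L →ₗ[L] V 2 L))) with h0 | h1
    · exfalso
      rw [Algebra.norm_eq_zero_iff] at h0
      exact (LinearEquiv.isUnit_det' h).ne_zero h0
    · exact h1
  obtain ⟨Om, hOm⟩ : ∃ Om : V 2 L ≃ₗ[L] V 2 L, ∀ x, Om x = ω • x :=
    ⟨LinearEquiv.smulOfNeZero L (V 2 L) ω hω0,
      fun x => LinearEquiv.smulOfNeZero_apply L (V 2 L) ω hω0 x⟩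
  have hOmM := hallM Om
  obtain ⟨h₀, hh₀def⟩ : ∃ h₀ : V 2 L ≃ₗ[F] V 2 L, h₀ = g⁻¹ * Om.restrictScalars F * g :=
    ⟨_, rfl⟩
  have hh₀M : h₀ ∈ c.M := by
    rw [hh₀def]
    exact c.M.mul_mem (c.M.mul_mem (c.M.inv_mem hg) hOmM) hg
  have hgg : ∀ y, g (g⁻¹ y) = y := by
    intro y
    rw [← LinearEquiv.mul_apply, mul_inv_cancel]
    rfl
  have hh₀ : ∀ x, g (h₀ x) = ω • g x := by
    intro x
    rw [hh₀def, LinearEquiv.mul_apply, LinearEquiv.mul_apply, hgg]
    exact hOm (g x)
  have hrel : ∀ x, h₀ (h₀ x) + h₀ x + x = 0 := by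
    intro x
    apply g.injective
    simp only [map_add, hh₀, map_zero]
    funext i
    simp only [Pi.add_apply, Pi.smul_apply, smul_eq_mul, Pi.zero_apply]
    linear_combination g x i * hω2 + g x i * (ω + 1) * h11
  obtain ⟨x₁, hx₁, hline₁⟩ := hZ2 F L hF hL h₀ hrel
  by_cases hl : ∀ x, LineAt h₀ x
  swap
  · exact ⟨h₀, hh₀M, hl, x₁, hx₁, hline₁⟩
  obtain ⟨c', hc'⟩ := hSpread F L 2 le_rfl h₀ hl ω
  have hh₀x₁ : h₀ x₁ ≠ 0 := fun h => hx₁ (h₀.map_eq_zero_iff.mp h)
  -- `LineAt` from the single relation at `ω`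
  have hlineg : ∀ (x : V 2 L) (a' : L), g (ω • x) = a' • g x → LineAt g x := by
    intro x a' hx a
    rcases hLall a with ha | ha | ha | ha
    · exact ⟨0, by rw [ha]; simp⟩
    · exact ⟨1, by rw [ha]; simp⟩
    · exact ⟨a', by rw [ha]; exact hx⟩
    · exact ⟨a' + 1, by rw [ha]; simp only [add_smul, one_smul, map_add, hx]⟩
  rcases hLall c' with hc0 | hc0 | hc0 | hc0
  · -- `c' = 0`
    exfalso
    have h := hc' x₁
    rw [hc0, zero_smul] at h
    have h' := h₀.map_eq_zero_iff.mp h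
    rcases smul_eq_zero.mp h' with h'' | h''
    · exact hω0 h''
    · exact hx₁ h''
  · -- `c' = 1`
    exfalso
    have h := hc' x₁
    rw [hc0, one_smul] at h
    have h' := h₀.injective h
    have h2 : (ω - 1) • x₁ = 0 := by rw [sub_smul, one_smul, h', sub_self]
    rcases smul_eq_zero.mp h2 with h'' | h''
    · exact hω1 (sub_eq_zero.mp h'')
    · exact hx₁ h''
  · -- `c' = ω`: `h₀` is `L`-linear
    rw [hc0] at hc'
    by_cases hz : ∀ y, h₀ y + (ω + 1) • y = 0
    · exfalso
      apply hgnot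
      intro y
      apply hlineg y (ω + 1)
      have h1 := congrArg g (hz y)
      simp only [map_add, hh₀, map_zero, add_smul, one_smul] at h1
      funext i
      have h1i := congrFun h1 i
      simp only [Pi.add_apply, Pi.smul_apply, smul_eq_mul, Pi.zero_apply] at h1i ⊢
      linear_combination h1i - (ω * g y i + g y i) * h11
    · push_neg at hz
      obtain ⟨y, hy⟩ := hz
      refine ⟨g, hg, hgnot, h₀ y + (ω + 1) • y, hy, ?_⟩
      apply hlineg _ ω
      have hx : h₀ (h₀ y + (ω + 1) • y) = ω • (h₀ y + (ω + 1) • y) := by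
        have r1 := hrel y
        simp only [map_add, add_smul, one_smul, hc' y, smul_add]
        funext i
        have r1i := congrFun r1 i
        simp only [Pi.add_apply, Pi.smul_apply, smul_eq_mul, Pi.zero_apply] at r1i ⊢
        linear_combination r1i - y i * hω2 - y i * (ω + 1) * h11
      have h2 := hh₀ (h₀ y + (ω + 1) • y)
      rw [hx] at h2
      exact h2
  · -- `c' = ω + 1`: impossible
    exfalso
    apply hh₀x₁
    rw [hc0] at hc'
    have E1 := hc' x₁
    have E2 := hc' (h₀ x₁)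
    have R1 := hrel x₁
    have R2 := hrel (ω • x₁)
    simp only [E1, add_smul, one_smul, map_add, E2] at R2
    funext i
    have r1 := congrFun R1 i
    have r2 := congrFun R2 i
    simp only [Pi.add_apply, Pi.smul_apply, smul_eq_mul, Pi.zero_apply] at r1 r2 ⊢
    linear_combination (ω + 1 + 1) * r1 - r2 - x₁ i * h11

end Cfsg.Agent.Lib.Helper85.GFZ3
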