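import Mathlib
import Cfsg.Agent.Lib.Helper44.MFldStmt
import Cfsg.Agent.Lib.Helper45.MinusInndiag

/-!
# S2737, piece ITO: transport of `Inndiag` between two minus forms (odd characteristic)
-/

set_option autoImplicit false

namespace Cfsg.Agent.Lib.Helper85.MFldITO

open Matrix Module QuadraticMap
open Cfsg.Agent.Lib.Helper45.OmegaAut Cfsg.Agent.Lib.Helper43.H90Fin
open Cfsg.Agent.Lib.Helper44.MFld0 Cfsg.Agent.Lib.Helper44.MaxTS
  Cfsg.Agent.Lib.Helper44.NegPairs Cfsg.Agent.Lib.Helper44.QSpace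
  Cfsg.Agent.Lib.Helper44.QClass
open Cfsg.Agent.Lib.Helper44.MFldStmt
open Cfsg.Agent.Lib.Helper45.OmegaAutPsi Cfsg.Agent.Lib.Helper45.OmegaAutMain
  Cfsg.Agent.Lib.Helper45.OmegaInndiag Cfsg.Agent.Lib.Helper45.MinusInndiag

universe u

/-- transport of a similarity along an isometry of forms -/
theorem conj_sim {F : Type u} [Field F] {ι : Type} [Fintype ι] [DecidableEq ι]
    (Q Q' : (ι → F) → F) (j : GL ι F) (hj : ∀ v : ι → F, Q' ((j : Matrix ι ι F) *ᵥ v) = Q v)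
    (s : GL ι F) (c : Fˣ) (hc : ∀ v, Q ((s : Matrix ι ι F) *ᵥ v) = (c : F) * Q v) :
    ∀ v, Q' (((j * s * j⁻¹ : GL ι F) : Matrix ι ι F) *ᵥ v) = (c : F) * Q' v := by
  intro v
  have e1 : ((j * s * j⁻¹ : GL ι F) : Matrix ι ι F) *ᵥ v = (j : Matrix ι ι F) *ᵥ
      ((s : Matrix ι ι F) *ᵥ (((j⁻¹ : GL ι F) : Matrix ι ι F) *ᵥ v)) := by
    rw [Units.val_mul, Units.val_mul, Matrix.mulVec_mulVec, Matrix.mulVec_mulVec]
  have e2 : v = (j : Matrix ι ι F) *ᵥ (((j⁻¹ : GL ι F) : Matrix ι ι F) *ᵥ v) := by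
    rw [Matrix.mulVec_mulVec, ← Units.val_mul, mul_inv_cancel, Units.val_one, Matrix.one_mulVec]
  rw [e1, hj, hc]
  conv_rhs => rw [e2, hj]

theorem inv_isom {F : Type u} [Field F] {ι : Type} [Fintype ι] [DecidableEq ι]
    (Q Q' : (ι → F) → F) (j : GL ι F) (hj : ∀ v : ι → F, Q' ((j : Matrix ι ι F) *ᵥ v) = Q v) :
    ∀ v : ι → F, Q (((j⁻¹ : GL ι F) : Matrix ι ι F) *ᵥ v) = Q' v := by
  intro v
  have e2 : v = (j : Matrix ι ι F) *ᵥ (((j⁻¹ : GL ι F) : Matrix ι ι F) *ᵥ v) := by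
    rw [Matrix.mulVec_mulVec, ← Units.val_mul, mul_inv_cancel, Units.val_one, Matrix.one_mulVec]
  conv_rhs => rw [e2, hj]

theorem det_conj {F : Type u} [Field F] {ι : Type} [Fintype ι] [DecidableEq ι]
    (j s : GL ι F) : ((j * s * j⁻¹ : GL ι F) : Matrix ι ι F).det = (s : Matrix ι ι F).det := by
  rw [Units.val_mul, Units.val_mul, Matrix.det_mul, Matrix.det_mul, mul_comm, ← mul_assoc,
    ← Matrix.det_mul, ← Units.val_mul, inv_mul_cancel, Units.val_one, Matrix.det_one, one_mul]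

theorem main (hPC : PomegaCongr.{u}) (hIso : IsoMinus.{u}) : IsoTransportOdd.{u} := by
  intro F _ _ m a b a' b' hab hab' h2
  obtain ⟨j, hj⟩ := hIso F m a b a' b' hab hab'
  obtain ⟨ψ₀, hψ⟩ := hPC F (MI m) (Cfsg.quadFormMinus m F a b) (Cfsg.quadFormMinus m F a' b') j hj
  refine ⟨ψ₀, ?_⟩
  have hS := sep_minusQ h2 m a b hab
  haveI : Nontrivial (MI m → F) := by
    haveI : Nonempty (MI m) := ⟨Sum.inr 0⟩
    infer_instance
  obtain ⟨v₀, hv₀⟩ := Cfsg.Agent.Lib.Helper44.QSpace.exists_ne_zero hS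
  have hv₀' : minusQ m F a' b' ((j : Matrix (MI m) (MI m) F) *ᵥ v₀) ≠ 0 := by
    have e : minusQ m F a' b' ((j : Matrix (MI m) (MI m) F) *ᵥ v₀) = minusQ m F a b v₀ := hj v₀
    rw [e]
    exact hv₀
  have hjinv := inv_isom _ _ j hj
  intro β
  rw [inndiag_minus_eq h2 m hab hv₀, inndiag_minus_eq h2 m hab' hv₀']
  constructor
  · rintro ⟨s, hs, rfl⟩
    have hs1 : dl (minusQ m F a b) hv₀ (m + 1) s = 1 := (mem_G0 _ hv₀ (m + 1) s).mp hs
    rw [dl_eq_one_iff] at hs1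
    have hsim := conj_sim _ _ j hj (s : GL (MI m) F) (mu (minusQ m F a b) s)
      (mu_spec (minusQ m F a b) s)
    obtain ⟨s', hs'⟩ : ∃ s' : GOq (Cfsg.quadFormMinus m F a' b'),
        (s' : GL (MI m) F) = j * (s : GL (MI m) F) * j⁻¹ :=
      ⟨⟨j * (s : GL (MI m) F) * j⁻¹, ⟨mu (minusQ m F a b) s, hsim⟩⟩, rfl⟩
    refine ⟨s', ?_, (hψ s s' hs').symm⟩
    have hmu : mu (minusQ m F a' b') s' = mu (minusQ m F a b) s :=
      mu_unique _ hv₀' s' _ (by rw [hs']; exact hsim)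
    have : dl (minusQ m F a' b') hv₀' (m + 1) s' = 1 := by
      refine (dl_eq_one_iff (minusQ m F a' b') hv₀' (m + 1) s').mpr ?_
      rw [hmu, ← hs1, hs', det_conj]
    exact (mem_G0 _ hv₀' (m + 1) s').mpr this
  · rintro ⟨s', hs', hβ⟩
    have hs1 : dl (minusQ m F a' b') hv₀' (m + 1) s' = 1 := (mem_G0 _ hv₀' (m + 1) s').mp hs'
    rw [dl_eq_one_iff] at hs1
    have hsim := conj_sim _ _ j⁻¹ hjinv (s' : GL (MI m) F) (mu (minusQ m F a' b') s')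
      (mu_spec (minusQ m F a' b') s')
    obtain ⟨s, hs⟩ : ∃ s : GOq (Cfsg.quadFormMinus m F a b),
        (s : GL (MI m) F) = j⁻¹ * (s' : GL (MI m) F) * j⁻¹⁻¹ :=
      ⟨⟨j⁻¹ * (s' : GL (MI m) F) * j⁻¹⁻¹, ⟨mu (minusQ m F a' b') s', hsim⟩⟩, rfl⟩
    have hmu : mu (minusQ m F a b) s = mu (minusQ m F a' b') s' :=
      mu_unique _ hv₀ s _ (by rw [hs]; exact hsim)
    have hdl : dl (minusQ m F a b) hv₀ (m + 1) s = 1 := by
      refine (dl_eq_one_iff (minusQ m F a b) hv₀ (m + 1) s).mpr ?_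
      rw [hmu, ← hs1, hs, det_conj]
    have hs'' : (s' : GL (MI m) F) = j * (s : GL (MI m) F) * j⁻¹ := by
      rw [hs]; group
    have h1 := hψ s s' hs''
    refine ⟨s, (mem_G0 _ hv₀ (m + 1) s).mpr hdl, ?_⟩
    have h2' : (ψ₀.symm.trans (Phi (Cfsg.quadFormMinus m F a b) s)).trans ψ₀ =
        (ψ₀.symm.trans β).trans ψ₀ := by
      rw [h1]; exact hβ
    apply MulEquiv.ext
    intro x
    have h3 := congrArg (fun e => ψ₀.symm (e (ψ₀ x))) h2'
    simp only [MulEquiv.trans_apply, MulEquiv.symm_apply_apply] at h3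
    have e : ψ₀.symm (ψ₀ x) = x := ψ₀.symm_apply_apply x
    exact (congrArg (Phi (Cfsg.quadFormMinus m F a b) s) e).symm.trans (h3.trans (congrArg β e))

end Cfsg.Agent.Lib.Helper85.MFldITO
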