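import Mathlib
import Cfsg.Agent.Lib.Helper83.MclStmt

/-! Piece [ASM] of S5075 (McLaughlin over `F_p`): assembly of the components. -/

set_option autoImplicit false

namespace Cfsg.Agent.Lib.Helper85.MclASM

universe u v w

section

variable {F : Type u} [Field F] {V : Type v} [AddCommGroup V] [Module F V]

/-- The pointwise fixer of a submodule. -/
def fixer (U : Submodule F V) : Subgroup (V ≃ₗ[F] V) where
  carrier := {g | ∀ x ∈ U, g x = x}
  mul_mem' := by
    intro a b ha hb x hx
    show a (b x) = x
    rw [hb x hx, ha x hx]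
  one_mem' := fun x _ => rfl
  inv_mem' := by
    intro a ha x hx
    show a.symm x = x
    rw [LinearEquiv.symm_apply_eq]
    exact (ha x hx).symm

theorem eq_of_agree {W0 C0 : Submodule F V} (hc : IsCompl W0 C0) (f g : V ≃ₗ[F] V)
    (h1 : ∀ x ∈ W0, f x = g x) (h2 : ∀ x ∈ C0, f x = g x) : f = g := by
  apply LinearEquiv.ext
  intro x
  have hx : x ∈ W0 ⊔ C0 := by rw [hc.sup_eq_top]; exact Submodule.mem_top
  obtain ⟨y, hy, z, hz, rfl⟩ := Submodule.mem_sup.mp hx
  rw [map_add, map_add, h1 y hy, h2 z hz]

end

theorem main : Cfsg.Agent.Lib.Helper83.MclStmt.ASM.{u, v, w} := by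
  intro F _ V _ _ _ H ι _ _ W C K hWC hW hKH hnorm hsup hKC hKW hρ
  classical
  haveI : Fintype ι := Fintype.ofFinite ι
  obtain ⟨e⟩ : Nonempty (Fin (Nat.card ι) ≃ ι) := ⟨(Finite.equivFin ι).symm⟩
  obtain ⟨W', hW'0, hW's⟩ : ∃ W' : Fin (Nat.card ι + 1) → Submodule F V,
      W' 0 = ⨅ i, C i ∧ ∀ j, W' j.succ = W (e j) :=
    ⟨Fin.cons (⨅ i, C i) (fun j => W (e j)), rfl, fun j => rfl⟩
  have q1 : ∀ i, ∀ x ∈ W i, (W i).projection (C i) (hWC i) x = x :=
    fun i x hx => Submodule.projection_apply_of_mem_left (hWC i) hx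
  have q2 : ∀ i, ∀ x ∈ C i, (W i).projection (C i) (hWC i) x = 0 :=
    fun i x hx => Submodule.projection_apply_of_mem_right (hWC i) hx
  have q3 : ∀ i x, (W i).projection (C i) (hWC i) x ∈ W i :=
    fun i x => Submodule.projection_apply_mem (hWC i) x
  have q4 : ∀ i x, x - (W i).projection (C i) (hWC i) x ∈ C i :=
    fun i x => Submodule.sub_projection_mem (hWC i) x
  obtain ⟨P, hP⟩ : ∃ P : V →ₗ[F] V, ∀ x, P x = ∑ i, (W i).projection (C i) (hWC i) x :=
    ⟨∑ i, (W i).projection (C i) (hWC i), fun x => LinearMap.sum_apply _ _ _⟩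
  have P1 : ∀ j, ∀ x ∈ W j, P x = x := by
    intro j x hx
    rw [hP, Finset.sum_eq_single j]
    · exact q1 j x hx
    · intro i _ hij
      exact q2 i x (hW i j hij hx)
    · intro h
      exact absurd (Finset.mem_univ j) h
  have P2 : ∀ x ∈ ⨅ i, C i, P x = 0 := by
    intro x hx
    rw [hP]
    apply Finset.sum_eq_zero
    intro i _
    exact q2 i x ((Submodule.mem_iInf C).mp hx i)
  have P3 : ∀ x, x - P x ∈ ⨅ i, C i := by
    intro x
    rw [Submodule.mem_iInf]
    intro j
    rw [hP, ← Finset.add_sum_erase Finset.univ _ (Finset.mem_univ j), ← sub_sub]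
    apply Submodule.sub_mem _ (q4 j x)
    apply Submodule.sum_mem
    intro i hi
    exact hW j i (Finset.ne_of_mem_erase hi).symm (q3 i x)
  have P4 : ∀ x, P x ∈ ⨆ i, W i := by
    intro x
    rw [hP]
    apply Submodule.sum_mem
    intro i _
    exact Submodule.mem_iSup_of_mem i (q3 i x)
  have P5 : ∀ x ∈ ⨆ i, W i, P x = x := by
    intro x hx
    refine Submodule.iSup_induction W (motive := fun x => P x = x) hx ?_ ?_ ?_
    · intro i y hy
      exact P1 i y hy
    · exact map_zero P
    · intro y z hy hz
      rw [map_add, hy, hz]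
  have hsupW : iSup W' = ⊤ := by
    rw [eq_top_iff]
    intro x _
    have hx : x = (x - P x) + P x := by abel
    rw [hx]
    apply Submodule.add_mem
    · apply Submodule.mem_iSup_of_mem 0
      rw [hW'0]
      exact P3 x
    · have hle : (⨆ i, W i) ≤ iSup W' := by
        apply iSup_le
        intro i
        have h1 : W i = W' (e.symm i).succ := by rw [hW's, e.apply_symm_apply]
        rw [h1]
        exact le_iSup W' _
      exact hle (P4 x)
  have hind : iSupIndep W' := by
    intro k
    rw [Submodule.disjoint_def]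
    induction k using Fin.cases with
    | zero =>
      intro x hx1 hx2
      rw [hW'0] at hx1
      have h1 : P x = 0 := P2 x hx1
      have hle : (⨆ j, ⨆ (_ : j ≠ 0), W' j) ≤ ⨆ i, W i := by
        apply iSup_le
        intro j
        apply iSup_le
        intro hj
        obtain ⟨j', rfl⟩ := Fin.exists_succ_eq.mpr hj
        rw [hW's]
        exact le_iSup W (e j')
      have h2 : P x = x := P5 x (hle hx2)
      rw [← h2, h1]
    | succ j0 =>
      intro x hx1 hx2
      rw [hW's] at hx1
      have hle : (⨆ j, ⨆ (_ : j ≠ j0.succ), W' j) ≤ C (e j0) := by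
        apply iSup_le
        intro j
        induction j using Fin.cases with
        | zero =>
          apply iSup_le
          intro _
          rw [hW'0]
          exact iInf_le C (e j0)
        | succ j1 =>
          apply iSup_le
          intro hj
          rw [hW's]
          apply hW (e j0) (e j1)
          intro h
          apply hj
          rw [e.injective h]
      exact (Submodule.disjoint_def.mp (hWC (e j0)).disjoint) x hx1 (hle hx2)
  have hA : ∀ i, ∀ k ∈ K i, ∀ l, ∀ x ∈ W' l, k x ∈ W' l := by
    intro i k hk l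
    induction l using Fin.cases with
    | zero =>
      intro x hx
      have hx' : x ∈ C i := by
        rw [hW'0] at hx
        exact (Submodule.mem_iInf C).mp hx i
      rw [hKC i k hk x hx']
      exact hx
    | succ j =>
      intro x hx
      by_cases hij : e j = i
      · rw [hW's, hij]
        rw [hW's, hij] at hx
        exact hKW i k hk x hx
      · have hx' : x ∈ C i := by
          rw [hW's] at hx
          exact hW i (e j) (Ne.symm hij) hx
        rw [hKC i k hk x hx']
        exact hx
  have hstab : ∀ l, ∀ h ∈ H, ∀ x, h x ∈ W' l ↔ x ∈ W' l := by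
    intro l h hh
    rw [← hsup] at hh
    refine Subgroup.iSup_induction K (C := fun h => ∀ x, h x ∈ W' l ↔ x ∈ W' l) hh ?_ ?_ ?_
    · intro i k hk x
      constructor
      · intro hx
        have h1 := hA i k⁻¹ ((K i).inv_mem hk) l (k x) hx
        have h2 : k⁻¹ (k x) = x := k.symm_apply_apply x
        rwa [h2] at h1
      · exact hA i k hk l x
    · intro x
      exact Iff.rfl
    · intro a b ha hb x
      exact (ha (b x)).trans (hb x)
  refine ⟨Nat.card ι, W', fun j => K (e j), Nat.card_pos, ?_, ?_, ?_, ?_, ?_, ?_, ?_, ?_⟩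
  · exact DirectSum.isInternal_submodule_of_iSupIndep_of_iSup_eq_top hind hsupW
  · intro h hh l
    ext y
    rw [Submodule.mem_map]
    constructor
    · rintro ⟨x, hx, rfl⟩
      exact (hstab l h hh x).mpr hx
    · intro hy
      have h1 : h (h⁻¹ y) = y := h.apply_symm_apply y
      refine ⟨h⁻¹ y, ?_, h1⟩
      have h2 := hstab l h hh (h⁻¹ y)
      rw [h1] at h2
      exact h2.mp hy
  · intro j
    refine ⟨hKH (e j), ⟨fun n hn g => ?_⟩⟩
    rw [Subgroup.mem_subgroupOf] at hn ⊢
    exact hnorm (e j) g g.2 n hn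
  · rw [← hsup]
    exact e.iSup_comp (g := K)
  · intro j
    rw [eq_bot_iff]
    intro g hg
    obtain ⟨hg1, hg2⟩ := Subgroup.mem_inf.mp hg
    rw [Subgroup.mem_bot]
    have hle : (⨆ j' ∈ {j' : Fin (Nat.card ι) | j' ≠ j}, K (e j')) ≤ fixer (W (e j)) := by
      apply iSup_le
      intro j'
      apply iSup_le
      intro hj'
      intro k hk x hx
      have hne : e j' ≠ e j := fun h => hj' (e.injective h)
      exact hKC (e j') k hk x (hW (e j') (e j) hne hx)
    exact eq_of_agree (hWC (e j)) g 1 (fun x hx => hle hg2 x hx)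
      (fun x hx => hKC (e j) g hg1 x hx)
  · intro j j' hjj' a ha b hb
    have hne : e j ≠ e j' := fun h => hjj' (e.injective h)
    apply eq_of_agree (hWC (e j))
    · intro x hx
      show a (b x) = b (a x)
      have h1 : b x = x := hKC (e j') b hb x (hW (e j') (e j) hne.symm hx)
      have h2 : b (a x) = a x :=
        hKC (e j') b hb (a x) (hW (e j') (e j) hne.symm (hKW (e j) a ha x hx))
      rw [h1, h2]
    · intro x hx
      show a (b x) = b (a x)
      have h1 : a x = x := hKC (e j) a ha x hx
      have hbx : b x ∈ C (e j) := by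
        have hx' : x ∈ W (e j') ⊔ C (e j') := by
          rw [(hWC (e j')).sup_eq_top]
          exact Submodule.mem_top
        obtain ⟨y, hy, z, hz, hyz⟩ := Submodule.mem_sup.mp hx'
        have h3 : b x = x + (b y - y) := by
          rw [← hyz, map_add, hKC (e j') b hb z hz]
          abel
        rw [h3]
        apply Submodule.add_mem _ hx
        apply hW (e j) (e j') hne
        exact Submodule.sub_mem _ (hKW (e j') b hb y hy) hy
      rw [h1, hKC (e j) a ha (b x) hbx]
  · intro j h hh i
    induction i using Fin.cases with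
    | zero =>
      intro _ v hv
      rw [hW'0] at hv
      exact hKC (e j) h hh v ((Submodule.mem_iInf C).mp hv (e j))
    | succ j1 =>
      intro hne v hv
      rw [hW's] at hv
      have hne' : e j ≠ e j1 := by
        intro h'
        apply hne
        rw [e.injective h']
      exact hKC (e j) h hh v (hW (e j) (e j1) hne' hv)
  · intro j
    have key : ∀ (U : Submodule F V), U = W (e j) →
        ∃ ρ : ↥(K (e j)) →* (↥U ≃ₗ[F] ↥U),
          (∀ (h : ↥(K (e j))) (v : ↥U), ((ρ h v : ↥U) : V) = (h : V ≃ₗ[F] V) (v : V)) ∧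
          ((ρ.range : Set (↥U ≃ₗ[F] ↥U)) =
              {f : ↥U ≃ₗ[F] ↥U | LinearMap.det (f : ↥U →ₗ[F] ↥U) = 1} ∨
            ∃ B : LinearMap.BilinForm F ↥U, B.IsAlt ∧ B.Nondegenerate ∧
              (ρ.range : Set (↥U ≃ₗ[F] ↥U)) =
                {f : ↥U ≃ₗ[F] ↥U | ∀ x y, B (f x) (f y) = B x y}) := by
      intro U hU
      subst hU
      exact hρ (e j)
    exact key _ (hW's j)

end Cfsg.Agent.Lib.Helper85.MclASM
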