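import Mathlib
import Cfsg.Agent.Lib.Helper88.ORStmt
import Cfsg.Agent.H85.PPowNormal
import Cfsg.Agent.H85.Invariant2
import Cfsg.Agent.Lib.Helper89.NRPP

/-! Piece INVP of S5202: a saturated subsystem of `p`-power index in `F'`, over a subgroup
strongly closed in `F`, with `F'` normal in `F`, is invariant under `Aut_F`. -/

set_option autoImplicit false

namespace Cfsg.Agent.Lib.Helper85.ORINVP

open Cfsg Cfsg.FusionSystem Cfsg.Agent.H85 Cfsg.Agent.Lib.Helper88.ORStmt

universe u

theorem main : InvPPower.{u} := by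
  intro Ω _ S _ p _ hS F hF S' S'' F' W hF'n hS''sc hWs hWi
  have hF'inv : F'.IsInvariantIn F := hF'n.1.2.2
  have hF'F : F'.IsSubsystemOf F := hF'inv.1
  have hS'sc : F.StronglyClosed S' := hF'inv.2.1
  have hS'S : S' ≤ S := hS'sc.1
  have hS''S : S'' ≤ S := hS''sc.1
  have hS''S' : S'' ≤ S' :=
    (F'.le_of_mem (hWi.1 S'' (W.conj_mem le_rfl (one_mem S'')))).1
  haveI : Finite S' := finite_of_le hS'S
  have hS' : IsPGroup p S' := hS.to_le hS'S
  have hSI : StrongInv F' F := (invariant_iff_strongInv p hS F hF F' hF'F hS'sc).mp hF'inv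
  apply invCond_of_le_invSys
  refine le_of_ppower_index p hS' F' W hWs hWi.1 hS''S' (invSys W (F.autGroup S'')) le_rfl
    ⟨?_, hWi.2.1, ?_⟩
  · intro P φ h
    exact hWi.1 P h.1
  · intro P hPT
    rintro _ ⟨β, hβ, rfl⟩
    refine aut_mem_invSys W _ hPT _ (hWi.2.2 P hPT ⟨β, hβ, rfl⟩) (fun α hα => ?_)
    have he := isIso_autRes F hS''S hα hPT
    have hmem : ∀ γ : F'.autGroup P,
        MulAut.congr (autRes α hPT) (γ : MulAut P) ∈ F'.autGroup (autImage α P) := fun γ =>
      Cfsg.Agent.Lib.Helper89.NRPP.transport F' F hSI (hPT.trans hS''S')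
        ((autImage_le α P).trans hS''S') _ he γ γ.2
    let f : F'.autGroup P →* F'.autGroup (autImage α P) :=
      ((MulAut.congr (autRes α hPT)).toMonoidHom.comp (F'.autGroup P).subtype).codRestrict
        (F'.autGroup (autImage α P)) hmem
    have hf : Function.Injective f := by
      intro a b hab
      have h1 : MulAut.congr (autRes α hPT) (a : MulAut P) =
          MulAut.congr (autRes α hPT) (b : MulAut P) := congrArg Subtype.val hab
      exact Subtype.ext ((MulAut.congr (autRes α hPT)).injective h1)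
    have h1 := pResidual_map_of_injective f hf hβ
    exact hWi.2.2 (autImage α P) (autImage_le α P) ⟨_, h1, rfl⟩

end Cfsg.Agent.Lib.Helper85.ORINVP
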