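import Mathlib
import Cfsg.Agent.Lib.Helper88.ORStmt
import Cfsg.Agent.H85.PrimeIdx
import Cfsg.Agent.Lib.Helper86.FSMore

/-! Piece INVQ of S5202: `R ≤ F'' ≤ F'` over the same `S'`, `R` of index prime to `p` in `F'`
and invariant under `Aut_F(S')`, `Aut_{F''}(S')` normalized by `Aut_F(S')`: then `F''` is
invariant under `Aut_F(S')`. -/

set_option autoImplicit false

namespace Cfsg.Agent.Lib.Helper85.ORINVQ

open Cfsg Cfsg.FusionSystem Cfsg.Agent.H85 Cfsg.Agent.Lib.Helper88.ORStmt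

universe u

theorem main : InvPPrime.{u} := by
  intro Ω _ S _ p _ hS F hF S' F' F'' R hF'F hF''s hF''F' hRF'' hRi hRinv hnorm
  have hS'S : S' ≤ S := (F.le_of_mem (hF'F S' (F'.conj_mem le_rfl (one_mem S')))).1
  haveI : Finite S' := finite_of_le hS'S
  have hS' : IsPGroup p S' := hS.to_le hS'S
  -- `R` contains the `p`-elements of the automizers of `F''`
  have hkey : ∀ P : Subgroup Ω, F''.IsCentric P →
      (Subgroup.closure {α : ↥(F''.autGroup P) | ∃ k : ℕ, orderOf α = p ^ k}).map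
        (F''.autGroup P).subtype ≤ R.autGroup P := by
    intro P hP
    rintro _ ⟨β, hβ, rfl⟩
    have hle : F''.autGroup P ≤ F'.autGroup P :=
      Cfsg.Agent.Lib.Helper86.FSMore.autGroup_mono F'' F' hF''F' P
    have h1 := ppGen_map_of_injective (Subgroup.inclusion hle)
      (Subgroup.inclusion_injective hle) (p := p) hβ
    exact hRi.2 P hP.1 ⟨_, h1, rfl⟩
  obtain ⟨-, hfrat, -⟩ := primeIdx_main p hS' F'' hF''s R hRF'' hkey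
  intro P hPT φ hφ α hα
  obtain ⟨a, ha, φ₀, hφ₀, hφa⟩ := hfrat P φ hφ
  obtain ⟨χ₀, hχ₀, hχ₀x⟩ := hRinv P hPT φ₀ hφ₀ α hα
  have ha' : α * a * α⁻¹ ∈ F''.autGroup S' := hnorm α hα a ha
  have ha'F := (mem_autGroup_iff F'' le_rfl _).mp ha'
  have hχ₀S : ∀ y, χ₀ y ∈ S' := (R.le_of_mem hχ₀).2
  have hφ₀S : ∀ x, φ₀ x ∈ S' := (R.le_of_mem hφ₀).2
  refine ⟨(S'.subtype.comp (α * a * α⁻¹).toMonoidHom).comp (χ₀.codRestrict S' hχ₀S),
    F''.comp_mem (hRF'' _ hχ₀) ha'F hχ₀S, fun x hφx hαx => ?_⟩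
  have h1 := hχ₀x x (hφ₀S x) hαx
  show (((α * a * α⁻¹) ⟨χ₀ ⟨(α ⟨x, hPT x.2⟩ : S'), hαx⟩, hχ₀S _⟩ : S') : Ω) = _
  have e1 : (⟨χ₀ ⟨(α ⟨x, hPT x.2⟩ : S'), hαx⟩, hχ₀S _⟩ : S') = α ⟨φ₀ x, hφ₀S x⟩ :=
    Subtype.ext h1
  rw [e1]
  show ((α (a (α⁻¹ (α ⟨φ₀ x, hφ₀S x⟩))) : S') : Ω) = _
  rw [MulAut.inv_apply_self]
  congr 2
  exact Subtype.ext (hφa x (hφ₀S x)).symm

end Cfsg.Agent.Lib.Helper85.ORINVQ
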