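import Mathlib
import Cfsg.Agent.Lib.Helper88.ORStmt
import Cfsg.Agent.H85.ResLimit

/-! Piece RLDEF of S5202: if `hyp(F) = S` then `F` and its `p'`-residual `Y` have the same
residual limit. -/

set_option autoImplicit false

namespace Cfsg.Agent.Lib.Helper85.ORRLDEF

open Cfsg Cfsg.FusionSystem Cfsg.Agent.H85 Cfsg.Agent.Lib.Helper88.ORStmt

universe u

/-- A residual limit of `X` with `hyp(X) = A` is a residual limit of the `p'`-residual of `X`. -/
theorem aux {Ω : Type*} [Group Ω] {p : ℕ} {L A : Subgroup Ω} {M : FusionSystem L}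
    {X : FusionSystem A} (h : M.IsResidualLimitOf X p) :
    Fact p.Prime → Finite A → IsPGroup p A → X.IsSaturated p → X.hyperfocalSubgroup p = A →
      ∀ Y : FusionSystem A, X.IsPPrimeResidual p Y → M.IsResidualLimitOf Y p := by
  induction h with
  | stable F p h1 h2 =>
    intro _ _ _ _ _ Y hY
    have hFY : HomEq F Y := HomEq.pprime (HomEq.refl F) h2 hY
    exact hFY.elim (fun Z => F.IsResidualLimitOf Z p) (IsResidualLimitOf.stable F p h1 h2)
  | step F p D D' hD hD' hE ih =>
    intro hp hfin hA hsat hhyp Y hY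
    have h1 : HomEq D F :=
      ppower_index_unique p hA F hhyp D F hD.1 hsat hD.2 (ppower_self F p)
    have h2 : HomEq D' Y := HomEq.pprime h1 hD' hY
    rename_i T A E
    exact h2.elim (fun Z => E.IsResidualLimitOf Z p) hE

theorem main : RLDef.{u} := by
  intro Ω _ S _ p hp hS F hF Y hhyp hY U V Xinf Yinf hX hYinf
  have h1 := aux hX hp inferInstance hS hF hhyp Y hY
  exact resLimit_unique h1 hp inferInstance hS Yinf hYinf

end Cfsg.Agent.Lib.Helper85.ORRLDEF
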